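import Mathlib
import Cfsg.Agent.Lib.Helper44.FW.Defs
import Cfsg.Agent.S3209

/-!
# Project FW (S3211): package [HCONJ]
-/

set_option autoImplicit false

namespace Cfsg.Agent.Lib.Helper67.FW

open Cfsg.Agent.Lib.Helper44.FW

universe u v w

/-- [HCONJ] -/
theorem pkgHConj : PkgHConj.{u, v, w} := by
  intro G _ _ F₁ _ _ F₂ _ _ hF₁ hF₂ L₁ L₂ ⟨e₁⟩ ⟨e₂⟩ j n cfg hInv
  obtain ⟨x, hxY, hx2, hxj, hall⟩ :=
    Cfsg.Agent.S3209.result hF₁ hF₂ L₁ L₂ e₁ e₂ cfg.comm j cfg.ord cfg.meet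
  have key : ∀ s ∈ Subgroup.centralizer ({j} : Set G), s ^ 2 = 1 → s ≠ 1 → s ≠ j →
      ∃ g ∈ L₁ ⊔ L₂, g * x * g⁻¹ = s := by
    intro s hs hs2 hs1 hsj
    obtain ⟨a, ha, b, hb, rfl, -, -⟩ := hInv s hs hs2 hs1 hsj
    have hsY : a * b ∈ L₁ ⊔ L₂ :=
      Subgroup.mul_mem _ (Subgroup.mem_sup_left ha) (Subgroup.mem_sup_right hb)
    have hord : orderOf (a * b) = 2 := orderOf_eq_prime hs2 hs1
    rcases hall (a * b) hsY hord with h | h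
    · exact absurd h hsj
    · exact h
  intro s hs hs2 hs1 hsj t ht ht2 ht1 htj
  obtain ⟨g₁, hg₁, rfl⟩ := key s hs hs2 hs1 hsj
  obtain ⟨g₂, hg₂, rfl⟩ := key t ht ht2 ht1 htj
  refine ⟨g₂ * g₁⁻¹, cfg.le (Subgroup.mul_mem _ hg₂ (Subgroup.inv_mem _ hg₁)), ?_⟩
  group

end Cfsg.Agent.Lib.Helper67.FW
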